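import Mathlib

/-!
# Arithmetic for the elements with small centralizer in the exceptional groups (helper228)
-/

set_option autoImplicit false

namespace Cfsg.Agent.H228.CritArith

/-- `u q^Σ ≤ v Π (q^i - 1)` -/
theorem prod_bound' {q : ℕ} (hq : 2 ≤ q) (L : List ℕ) :
    (L.map fun i => 2 ^ i - 1).prod * q ^ L.sum ≤ (L.map fun i => 2 ^ i).prod * (L.map fun i => q ^ i - 1).prod := by
  induction L with
  | nil => simp
  | cons i L ih =>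
    simp only [List.map_cons, List.prod_cons, List.sum_cons, pow_add]
    have h1 : (2 ^ i - 1) * q ^ i ≤ 2 ^ i * (q ^ i - 1) := by
      have h2 : 2 ^ i ≤ q ^ i := Nat.pow_le_pow_left hq i
      have h3 : 1 ≤ 2 ^ i := Nat.one_le_two_pow
      rw [Nat.sub_mul, Nat.mul_sub, one_mul, mul_one]
      omega
    calc (2 ^ i - 1) * (L.map fun i => 2 ^ i - 1).prod * (q ^ i * q ^ L.sum)
        = ((2 ^ i - 1) * q ^ i) * ((L.map fun i => 2 ^ i - 1).prod * q ^ L.sum) := by ring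
      _ ≤ (2 ^ i * (q ^ i - 1)) * ((L.map fun i => 2 ^ i).prod * (L.map fun i => q ^ i - 1).prod) :=
          Nat.mul_le_mul h1 ih
      _ = _ := by ring

theorem prod_bound {q u v : ℕ} (hq : 2 ≤ q) (L : List ℕ)
    (h : u * (L.map fun i => 2 ^ i).prod ≤ v * (L.map fun i => 2 ^ i - 1).prod) :
    u * q ^ L.sum ≤ v * (L.map fun i => q ^ i - 1).prod := by
  have h1 := prod_bound' hq L
  have hpos : 0 < (L.map fun i => 2 ^ i).prod := List.prod_pos fun a ha => by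
    obtain ⟨i, -, rfl⟩ := List.mem_map.1 ha
    positivity
  refine Nat.le_of_mul_le_mul_left ?_ hpos
  calc (L.map fun i => 2 ^ i).prod * (u * q ^ L.sum) = (u * (L.map fun i => 2 ^ i).prod) * q ^ L.sum := by ring
    _ ≤ (v * (L.map fun i => 2 ^ i - 1).prod) * q ^ L.sum := Nat.mul_le_mul_right _ h
    _ = v * ((L.map fun i => 2 ^ i - 1).prod * q ^ L.sum) := by ring
    _ ≤ v * ((L.map fun i => 2 ^ i).prod * (L.map fun i => q ^ i - 1).prod) := Nat.mul_le_mul_left _ h1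
    _ = _ := by ring

/-! ### coprimality -/

theorem cop_sub {q i : ℕ} (hq : 1 ≤ q) (hi : i ≠ 0) : Nat.Coprime q (q ^ i - 1) := by
  have h1 : 1 ≤ q ^ i := Nat.one_le_pow _ _ hq
  have h2 : Nat.Coprime (q ^ i) (q ^ i - 1) := by
    rw [Nat.coprime_self_sub_right h1]
    exact Nat.coprime_one_right _
  exact Nat.Coprime.coprime_dvd_left (dvd_pow_self q hi) h2

theorem cop_add {q i : ℕ} (hi : i ≠ 0) : Nat.Coprime q (q ^ i + 1) := by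
  have h2 : Nat.Coprime (q ^ i) (q ^ i + 1) := by simp
  exact Nat.Coprime.coprime_dvd_left (dvd_pow_self q hi) h2

theorem not_dvd_of_coprime {r q M : ℕ} (hr : r.Prime) (hrq : r ∣ q) (h : Nat.Coprime q M) : ¬ r ∣ M := fun h1 =>
  hr.one_lt.ne' (Nat.dvd_one.1 (h ▸ Nat.dvd_gcd hrq h1))

/-- `x² - x + 1` -/
theorem mul_add_one {x : ℕ} (hx : 1 ≤ x) : (x ^ 2 - x + 1) * (x + 1) = x ^ 3 + 1 := by
  obtain ⟨y, rfl⟩ : ∃ y, x = y + 1 := ⟨x - 1, by omega⟩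
  have : (y + 1) ^ 2 - (y + 1) = y ^ 2 + y := by
    have : (y + 1) ^ 2 = y ^ 2 + y + (y + 1) := by ring
    omega
  rw [this]
  ring

theorem sub_mul_add {x : ℕ} (hx : 1 ≤ x) : (x + 1) * (x - 1) = x ^ 2 - 1 := by
  obtain ⟨y, rfl⟩ : ∃ y, x = y + 1 := ⟨x - 1, by omega⟩
  have : (y + 1) ^ 2 = (y + 1 + 1) * y + 1 := by ring
  rw [this]
  simp

theorem sub_mul_three {x : ℕ} (hx : 1 ≤ x) : (x ^ 2 + x + 1) * (x - 1) = x ^ 3 - 1 := by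
  obtain ⟨y, rfl⟩ : ∃ y, x = y + 1 := ⟨x - 1, by omega⟩
  have : (y + 1) ^ 3 = ((y + 1) ^ 2 + (y + 1) + 1) * y + 1 := by ring
  rw [this]
  simp

/-- `x² - x + 1` is coprime to `x` -/
theorem cop_sq {x : ℕ} (hx : 1 ≤ x) : Nat.Coprime x (x ^ 2 - x + 1) := by
  obtain ⟨y, rfl⟩ : ∃ y, x = y + 1 := ⟨x - 1, by omega⟩
  have : (y + 1) ^ 2 - (y + 1) = (y + 1) * y := by
    have : (y + 1) ^ 2 = (y + 1) * y + (y + 1) := by ring
    omega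
  rw [this]
  simp

theorem odd_sq {x : ℕ} : Odd (x ^ 2 - x + 1) := by
  have h1 : x ^ 2 - x = x * (x - 1) := by rw [Nat.mul_sub, mul_one, pow_two]
  rw [h1]
  exact (Nat.even_mul_pred_self x).add_one

theorem odd_sq' {x : ℕ} : Odd (x ^ 2 + x + 1) := by
  have h1 : x ^ 2 + x = x * (x + 1) := by ring
  rw [h1]
  exact (Nat.even_mul_succ_self x).add_one

/-- `q⁴ + 1` and `q⁴ - q² + 1` -/
theorem cop_812 {q : ℕ} (hq : 1 ≤ q) : Nat.Coprime (q ^ 4 + 1) (q ^ 4 - q ^ 2 + 1) := by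
  have h0 : q ^ 2 ≤ q ^ 4 := Nat.pow_le_pow_right hq (by norm_num)
  have h1 : q ^ 4 + 1 = q ^ 2 + (q ^ 4 - q ^ 2 + 1) := by omega
  have h2 : q ^ 4 - q ^ 2 + 1 = (q ^ 2) ^ 2 - q ^ 2 + 1 := by rw [← pow_mul]
  rw [h1, Nat.coprime_add_self_left, h2]
  exact cop_sq (Nat.one_le_pow _ _ hq)

/-- `q² + q + 1` and `q² - q + 1` -/
theorem cop_36 {q : ℕ} (hq : 1 ≤ q) : Nat.Coprime (q ^ 2 + q + 1) (q ^ 2 - q + 1) := by
  have h0 : q ≤ q ^ 2 := Nat.le_self_pow (by norm_num) q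
  have h1 : q ^ 2 + q + 1 = 2 * q + (q ^ 2 - q + 1) := by omega
  rw [h1, Nat.coprime_add_self_left]
  exact Nat.Coprime.mul_left (Nat.coprime_two_left.2 odd_sq) (cop_sq hq)

/-- `q⁴ - q² + 1` and `q² + q + 1` -/
theorem cop_123 {q : ℕ} (hq : 2 ≤ q) : Nat.Coprime (q ^ 4 - q ^ 2 + 1) (q ^ 2 + q + 1) := by
  have h0 : q ^ 2 ≤ q ^ 4 := Nat.pow_le_pow_right (by omega) (by norm_num)
  have h1 : q + 1 ≤ q ^ 2 := by nlinarith
  have h2 : q ^ 4 - q ^ 2 + 1 = 2 * (q + 1) + (q ^ 2 - (q + 1)) * (q ^ 2 + q + 1) := by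
    zify [h0, h1]
    ring
  rw [h2, Nat.coprime_add_mul_right_left]
  refine Nat.Coprime.mul_left (Nat.coprime_two_left.2 odd_sq') ?_
  have : q ^ 2 + q + 1 = 1 + q * (q + 1) := by ring
  rw [this, Nat.coprime_add_mul_right_right]
  exact Nat.coprime_one_right _

/-- `f < p ^ f` -/
theorem f_lt {p f q : ℕ} (hp : 2 ≤ p) (hq : q = p ^ f) : f + 1 ≤ q := by
  rw [hq]; exact Nat.lt_pow_self (by omega)

/-- `(q⁴ + 1)(q⁴ - q² + 1)` divides `(q⁸ - 1)(q¹² - 1)` -/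
theorem dvd_812 {q : ℕ} (hq : 1 ≤ q) : (q ^ 4 + 1) * (q ^ 4 - q ^ 2 + 1) ∣ (q ^ 8 - 1) * (q ^ 12 - 1) := by
  refine mul_dvd_mul ⟨q ^ 4 - 1, ?_⟩ ?_
  · rw [sub_mul_add (Nat.one_le_pow _ _ hq), ← pow_mul]
  · have h1 : q ^ 12 - 1 = (q ^ 6 + 1) * (q ^ 6 - 1) := by
      rw [sub_mul_add (Nat.one_le_pow _ _ hq), ← pow_mul]
    have h2 : (q ^ 4 - q ^ 2 + 1) * (q ^ 2 + 1) = q ^ 6 + 1 := by
      have := mul_add_one (x := q ^ 2) (Nat.one_le_pow _ _ hq)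
      rwa [← pow_mul, ← pow_mul] at this
    rw [h1, ← h2, mul_assoc]
    exact Dvd.intro _ rfl

/-- `(q² + q + 1)(q² - q + 1)` divides `q⁶ - 1` -/
theorem dvd_36 {q : ℕ} (hq : 1 ≤ q) : (q ^ 2 + q + 1) * (q ^ 2 - q + 1) ∣ q ^ 6 - 1 := by
  have h1 : q ^ 6 - 1 = (q ^ 3 + 1) * (q ^ 3 - 1) := by
    rw [sub_mul_add (Nat.one_le_pow _ _ hq), ← pow_mul]
  rw [h1, ← mul_add_one hq, ← sub_mul_three hq]
  exact ⟨(q + 1) * (q - 1), by ring⟩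

/-- `(q⁴ - q² + 1)(q² + q + 1)` divides `(q⁶ - 1)(q⁸ + q⁴ + 1)` -/
theorem dvd_123 {q : ℕ} (hq : 1 ≤ q) : (q ^ 4 - q ^ 2 + 1) * (q ^ 2 + q + 1) ∣ (q ^ 8 + q ^ 4 + 1) * (q ^ 6 - 1) := by
  refine mul_dvd_mul ⟨q ^ 4 + q ^ 2 + 1, ?_⟩ ((Dvd.intro _ rfl).trans (dvd_36 hq))
  have h0 : q ^ 2 ≤ q ^ 4 := Nat.pow_le_pow_right hq (by norm_num)
  zify [h0]
  ring

/-- the final estimate -/
theorem fin_le {q N k n u v P E o : ℕ} (hv : 0 < v) (hn : n = k + N) (h1 : u * q ^ n ≤ v * P)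
    (hE : v * o ≤ E * (u * q ^ k)) : o * q ^ N ≤ E * P := by
  refine Nat.le_of_mul_le_mul_left ?_ hv
  calc v * (o * q ^ N) = (v * o) * q ^ N := by ring
    _ ≤ (E * (u * q ^ k)) * q ^ N := Nat.mul_le_mul_right _ hE
    _ = E * (u * q ^ n) := by rw [hn, pow_add]; ring
    _ ≤ E * (v * P) := Nat.mul_le_mul_left _ h1
    _ = _ := by ring

/-- `8 d f ≤ q⁵` -/
theorem df_le {q d f : ℕ} (hq2 : 2 ≤ q) (hd : d ≤ q - 1) (hfq : f + 1 ≤ q) : 8 * (d * f) ≤ (q + 1) * q ^ 4 := by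
  obtain ⟨k, rfl⟩ : ∃ k, q = k + 2 := ⟨q - 2, by omega⟩
  have h1 : d * f ≤ (k + 1) * (k + 1) := Nat.mul_le_mul (by omega) (by omega)
  refine (Nat.mul_le_mul_left 8 h1).trans ?_
  nlinarith [pow_nonneg (Nat.zero_le k) 2, pow_nonneg (Nat.zero_le k) 3,
      pow_nonneg (Nat.zero_le k) 4, pow_nonneg (Nat.zero_le k) 5, Nat.zero_le k]

/-- `2 · 2 · d · f ≤ q⁴ - q² + 1` -/
theorem b_le {q d f : ℕ} (hq2 : 2 ≤ q) (hd : d ≤ q - 1) (hfq : f + 1 ≤ q) : 4 * (d * f) ≤ q ^ 4 - q ^ 2 + 1 := by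
  have h4 : q ^ 2 ≤ q ^ 4 := Nat.pow_le_pow_right (by omega) (by norm_num)
  obtain ⟨k, rfl⟩ : ∃ k, q = k + 2 := ⟨q - 2, by omega⟩
  have h1 : d * f ≤ (k + 1) * (k + 1) := Nat.mul_le_mul (by omega) (by omega)
  refine (Nat.mul_le_mul_left 4 h1).trans ?_
  zify [h4]
  nlinarith [pow_nonneg (Nat.cast_nonneg (α := ℤ) k) 2, pow_nonneg (Nat.cast_nonneg (α := ℤ) k) 3,
      pow_nonneg (Nat.cast_nonneg (α := ℤ) k) 4, Nat.cast_nonneg (α := ℤ) k]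

theorem a_le {q d f : ℕ} (hq2 : 2 ≤ q) (hd : d ≤ q - 1) (hfq : f + 1 ≤ q) : 4 * (d * f) ≤ q ^ 4 + 1 :=
  (b_le hq2 hd hfq).trans (by omega)

/-- `2 n + 1 ≤ 2 ^ n` for `n ≥ 3` -/
theorem two_mul_le {n : ℕ} (hn : 3 ≤ n) : 2 * n + 1 ≤ 2 ^ n := by
  obtain ⟨j, rfl⟩ : ∃ j, n = j + 3 := ⟨n - 3, by omega⟩
  clear hn
  induction j with
  | zero => norm_num
  | succ n ih => rw [show n + 1 + 3 = (n + 3) + 1 by ring, pow_succ]; omega

/-- `2 n + 1 ≤ 3 ^ n` -/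
theorem two_mul_le3 (n : ℕ) : 2 * n + 1 ≤ 3 ^ n := by
  induction n with
  | zero => norm_num
  | succ n ih => rw [pow_succ]; omega

/-- `q⁴ - q² + 1` and `q - 1` -/
theorem cop_121 {q : ℕ} (hq : 1 ≤ q) : Nat.Coprime (q ^ 4 - q ^ 2 + 1) (q - 1) := by
  have h0 : q ^ 2 ≤ q ^ 4 := Nat.pow_le_pow_right hq (by norm_num)
  have h1 : q ^ 4 - q ^ 2 + 1 = 1 + (q ^ 2 * (q + 1)) * (q - 1) := by
    zify [h0, hq]
    ring
  rw [h1, Nat.coprime_add_mul_right_left]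
  exact Nat.coprime_one_left _

/-- `q² - q + 1` and `q - 1` -/
theorem cop_61 {q : ℕ} (hq : 1 ≤ q) : Nat.Coprime (q ^ 2 - q + 1) (q - 1) := by
  have h0 : q ≤ q ^ 2 := Nat.le_self_pow (by norm_num) q
  have h1 : q ^ 2 - q + 1 = 1 + q * (q - 1) := by
    zify [h0, hq]
    ring
  rw [h1, Nat.coprime_add_mul_right_left]
  exact Nat.coprime_one_left _

end Cfsg.Agent.H228.CritArith
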