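import Mathlib
import Cfsg.Agent.H228.CritExc

/-!
# `Crit S` for the twisted exceptional groups (helper228)
-/

set_option autoImplicit false

namespace Cfsg.Agent.H228.CritExc

open Cfsg.Lie Cfsg.Agent.H548.Crit Cfsg.Agent.H228.CritArith Cfsg.Agent.H228.RegUnip Cfsg.Agent.Nodes.RGDChev

universe u

theorem crit_twF4 {K : Type u} [Field K] [Fintype K] {m : ℕ} (hm : 1 ≤ m) (hK : Fintype.card K = 2 ^ (2 * m + 1)) :
    Crit ↥(twistedF4 K (2 ^ m)) := by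
  have hO := S2128.result hm hK
  have hx := exists_cent_F4 hK
  have hS := S1068.result hK
  obtain ⟨f, hf⟩ : ∃ f, f = 2 * m + 1 := ⟨_, rfl⟩
  rw [← hf] at hO hx hS
  have h3 : 3 ≤ f := by omega
  have hfq := two_mul_le h3
  obtain ⟨q, hq⟩ : ∃ q, q = 2 ^ f := ⟨_, rfl⟩
  rw [← hq] at hfq hx hS
  have hq1 : 1 ≤ q := by omega
  have h42 : q ^ 2 ≤ q ^ 4 := Nat.pow_le_pow_right hq1 (by norm_num)
  refine crit_q Nat.prime_two hq (by omega) hx (M := (q - 1) * (q ^ 3 + 1) * (q ^ 4 - 1) * (q ^ 6 + 1)) ?_ ?_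
    (le_of_eq hO) (cop_121 hq1) ?_ ?_ ?_ ?_
  · rw [hS]; ring
  · refine ((Nat.Coprime.mul_right ?_ (cop_add (by norm_num))).mul_right (cop_sub hq1 (by norm_num))).mul_right
      (cop_add (by norm_num))
    have := cop_sub (q := q) (i := 1) hq1 one_ne_zero
    rwa [pow_one] at this
  · have h2 : (q ^ 4 - q ^ 2 + 1) * (q ^ 2 + 1) = q ^ 6 + 1 := by
      have := mul_add_one (x := q ^ 2) (Nat.one_le_pow _ _ hq1)
      rwa [← pow_mul, ← pow_mul] at this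
    exact ⟨(q ^ 3 + 1) * (q ^ 4 - 1) * (q ^ 2 + 1), by rw [← h2]; ring⟩
  · have := b_le (q := q) (d := 1) (f := f) (by omega) (by omega) (by omega)
    omega
  · omega
  · have e1 : q ^ 3 ≤ q ^ 4 - 1 := by
      have : q ^ 3 * 2 ≤ q ^ 3 * q := Nat.mul_le_mul_left _ (by omega)
      have h0 : 1 ≤ q ^ 3 := Nat.one_le_pow _ _ hq1
      have : q ^ 4 = q ^ 3 * q := by ring
      omega
    calc 2 * f * q ^ 12 ≤ (q - 1) * q ^ 12 := Nat.mul_le_mul_right _ (by omega)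
      _ = (q - 1) * q ^ 3 * q ^ 3 * q ^ 6 := by ring
      _ ≤ (q - 1) * (q ^ 3 + 1) * (q ^ 4 - 1) * (q ^ 6 + 1) := by
        gcongr
        · omega
        · omega

theorem crit_twG2 {K : Type u} [Field K] [Fintype K] {m : ℕ} (hm : 1 ≤ m) (hK : Fintype.card K = 3 ^ (2 * m + 1)) :
    Crit ↥(twistedG2 K (3 ^ m)) := by
  have hO := S2127.result hm hK
  have hx := exists_cent_G2 hK
  have hS := S1069.result hK
  obtain ⟨f, hf⟩ : ∃ f, f = 2 * m + 1 := ⟨_, rfl⟩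
  rw [← hf] at hO hx hS
  have h3 : 3 ≤ f := by omega
  have hfq := two_mul_le3 f
  obtain ⟨q, hq⟩ : ∃ q, q = 3 ^ f := ⟨_, rfl⟩
  rw [← hq] at hfq hx hS
  have hq1 : 1 ≤ q := by omega
  have h42 : q ≤ q ^ 2 := Nat.le_self_pow (by norm_num) q
  refine crit_q Nat.prime_three hq (by omega) hx (M := (q - 1) * (q ^ 3 + 1)) ?_ ?_
    (le_of_eq hO) (cop_61 hq1) ?_ ?_ ?_ ?_
  · rw [hS]; ring
  · refine Nat.Coprime.mul_right ?_ (cop_add (by norm_num))
    have := cop_sub (q := q) (i := 1) hq1 one_ne_zero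
    rwa [pow_one] at this
  · have h2 := mul_add_one (x := q) hq1
    exact ⟨q + 1, by rw [← h2]; ring⟩
  · zify [h42]
    have : (2 * f + 1 : ℤ) ≤ q := by exact_mod_cast hfq
    nlinarith
  · omega
  · calc 2 * f * q ^ 3 ≤ (q - 1) * q ^ 3 := Nat.mul_le_mul_right _ (by omega)
      _ ≤ (q - 1) * (q ^ 3 + 1) := by gcongr; omega

theorem crit_twD4 {K : Type u} [Field K] [Fintype K] {q : ℕ} (hq : IsPrimePow q) (hK : Fintype.card K = q ^ 3) :
    Crit ↥(twistedD4 K q) := by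
  have hx := exists_cent_D4 hq hK
  have hS := S1067.result hq hK
  obtain ⟨p, f, hp, hf, rfl⟩ := hq
  replace hp : p.Prime := Nat.prime_iff.2 hp
  have : Fact p.Prime := ⟨hp⟩
  have hK' : Fintype.card K = p ^ (3 * f) := by rw [hK, ← pow_mul, mul_comm]
  have := charP_of_card_eq_prime_pow hK'
  have hO := S2129.result (K := K) p f hK' hf
  obtain ⟨q, hq⟩ : ∃ q, q = p ^ f := ⟨_, rfl⟩
  rw [← hq] at hO hx hS ⊢
  have hfq := f_lt hp.two_le hq
  have hq2 : 2 ≤ q := by omega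
  have h42 : q ^ 2 ≤ q ^ 4 := Nat.pow_le_pow_right (by omega) (by norm_num)
  have h6 : 6 * f ≤ q ^ 2 + q + 1 := by
    have : (f : ℤ) + 1 ≤ q := by exact_mod_cast hfq
    zify
    nlinarith [sq_nonneg ((q : ℤ) - 2), sq_nonneg ((q : ℤ) - 3)]
  refine crit_q hp hq (by omega) hx (M := (q ^ 2 - 1) * (q ^ 6 - 1) * (q ^ 8 + q ^ 4 + 1)) ?_ ?_
    (le_of_eq hO) (cop_123 hq2) ?_ ?_ ?_ ?_
  · rw [hS]; ring
  · refine ((cop_sub (by omega) (by norm_num)).mul_right (cop_sub (by omega) (by norm_num))).mul_right ?_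
    have : q ^ 8 + q ^ 4 + 1 = 1 + q * (q ^ 7 + q ^ 3) := by ring
    rw [this]; simp
  · refine (dvd_123 (q := q) (by omega)).trans ⟨q ^ 2 - 1, by ring⟩
  · zify [h42]
    have h1 : (f : ℤ) + 1 ≤ q := by exact_mod_cast hfq
    have h2 : (2 : ℤ) ≤ q := by exact_mod_cast hq2
    nlinarith [pow_pos (show (0 : ℤ) < q by linarith) 2, pow_pos (show (0 : ℤ) < q by linarith) 3]
  · omega
  · have h1 := prod_bound (u := 1) (v := 2) hq2 [2, 6] (by norm_num)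
    simp only [List.sum_cons, List.sum_nil, List.map_cons, List.map_nil, List.prod_cons, List.prod_nil,
      mul_one] at h1
    have h12 : 12 * f ≤ q ^ 4 := by
      obtain ⟨k, rfl⟩ : ∃ k, q = k + 2 := ⟨q - 2, by omega⟩
      have : 12 * f ≤ 12 * (k + 1) := by omega
      refine this.trans ?_
      nlinarith [pow_nonneg (Nat.zero_le k) 2, pow_nonneg (Nat.zero_le k) 3, pow_nonneg (Nat.zero_le k) 4]
    have h3 := fin_le (q := q) (N := 12) (n := 16) (k := 4) (u := 1) (v := 2) (E := 1) (o := 2 * (3 * f))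
      (P := (q ^ 2 - 1) * (q ^ 6 - 1) * (q ^ 8 + q ^ 4 + 1)) (by norm_num) rfl ?_ ?_
    · rwa [one_mul] at h3
    · calc 1 * q ^ 16 = (1 * q ^ (2 + (6 + 0))) * q ^ 8 := by ring
        _ ≤ (2 * ((q ^ 2 - 1) * (q ^ 6 - 1))) * (q ^ 8 + q ^ 4 + 1) := Nat.mul_le_mul h1 (by omega)
        _ = _ := by ring
    · calc 2 * (2 * (3 * f)) = 12 * f := by ring
        _ ≤ q ^ 4 := h12
        _ = 1 * (1 * q ^ 4) := by ring

theorem arith_E6 {q f : ℕ} (hq2 : 2 ≤ q) (hfq : f + 1 ≤ q) : 10 * (36 * f) ≤ (q ^ 2 - 1) * (9 * q ^ 4) := by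
  have h1 : 16 ≤ q ^ 4 := by
    calc 16 = 2 ^ 4 := by norm_num
      _ ≤ q ^ 4 := Nat.pow_le_pow_left hq2 4
  have h2 : 3 * (q - 1) ≤ q ^ 2 - 1 := by
    rw [← sub_mul_add (x := q) (by omega)]
    exact Nat.mul_le_mul_right _ (by omega)
  calc 10 * (36 * f) ≤ (3 * (q - 1)) * (9 * 16) := by omega
    _ ≤ (q ^ 2 - 1) * (9 * q ^ 4) := Nat.mul_le_mul h2 (Nat.mul_le_mul_left _ h1)

theorem crit_twE6 {K : Type u} [Field K] [Fintype K] {q : ℕ} (hq : IsPrimePow q) (hK : Fintype.card K = q ^ 2) :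
    Crit ↥(twistedE6 K q) := by
  have hx := exists_cent_E6 hq hK
  have hcard := S1066.result hq hK
  obtain ⟨p, f, hp, hf, rfl⟩ := hq
  replace hp : p.Prime := Nat.prime_iff.2 hp
  have : Fact p.Prime := ⟨hp⟩
  have hK' : Fintype.card K = p ^ (2 * f) := by rw [hK, ← pow_mul, mul_comm]
  have := charP_of_card_eq_prime_pow hK'
  have hO := S2130.result (K := K) p f hK' hf
  obtain ⟨q, hq⟩ : ∃ q, q = p ^ f := ⟨_, rfl⟩
  rw [← hq] at hO hx hcard ⊢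
  have hfq := f_lt hp.two_le hq
  have hq2 : 2 ≤ q := by omega
  obtain ⟨d, hd⟩ : ∃ d, d = Nat.gcd 3 (q + 1) := ⟨_, rfl⟩
  rw [← hd] at hO hcard
  have hd1 : d ∣ q + 1 := hd ▸ Nat.gcd_dvd_right _ _
  have hd0 : 0 < d := Nat.pos_of_dvd_of_pos hd1 (by omega)
  have hd3 : d ≤ 3 := hd ▸ Nat.gcd_le_left _ (by norm_num)
  obtain ⟨e, he⟩ := hd1
  have hq1 : q ^ 2 - 1 = d * (e * (q - 1)) := by
    rw [← sub_mul_add (x := q) (by omega), he]; ring
  have hS : Nat.card ↥(twistedE6 K q) =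
      q ^ 36 * ((e * (q - 1)) * ((q ^ 5 + 1) * (q ^ 6 - 1) * (q ^ 8 - 1) * (q ^ 9 + 1) * (q ^ 12 - 1))) := by
    refine Nat.eq_of_mul_eq_mul_left hd0 ?_
    rw [hcard, hq1]; ring
  have h12 : 12 * f ≤ q ^ 4 - q ^ 2 + 1 := by
    have h4 : q ^ 2 ≤ q ^ 4 := Nat.pow_le_pow_right (by omega) (by norm_num)
    obtain ⟨k, rfl⟩ : ∃ k, q = k + 2 := ⟨q - 2, by omega⟩
    have : 12 * f ≤ 12 * (k + 1) := by omega
    refine this.trans ?_
    zify [h4]
    nlinarith [pow_nonneg (Nat.cast_nonneg (α := ℤ) k) 2, pow_nonneg (Nat.cast_nonneg (α := ℤ) k) 3,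
      pow_nonneg (Nat.cast_nonneg (α := ℤ) k) 4, Nat.cast_nonneg (α := ℤ) k]
  have hdf : d * f ≤ 3 * f := Nat.mul_le_mul_right _ hd3
  have hb4 : q ^ 4 - q ^ 2 + 1 ≤ q ^ 4 + 1 := by omega
  refine crit_q (o := 2 * (d * f)) hp hq (by omega) hx hS ?_ (le_of_eq (hO.trans (by ring)))
    (cop_812 (q := q) (by omega)) ?_ ?_ ?_ ?_
  · refine Nat.Coprime.mul_right ?_ (((((cop_add (by norm_num)).mul_right
      (cop_sub (by omega) (by norm_num))).mul_right (cop_sub (by omega) (by norm_num))).mul_right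
      (cop_add (by norm_num))).mul_right (cop_sub (by omega) (by norm_num)))
    exact Nat.Coprime.coprime_dvd_right ⟨d, by rw [hq1]; ring⟩ (cop_sub (q := q) (i := 2) (by omega) (by norm_num))
  · refine (dvd_812 (q := q) (by omega)).trans ⟨(e * (q - 1)) * ((q ^ 5 + 1) * (q ^ 6 - 1) * (q ^ 9 + 1)), by ring⟩
  · omega
  · omega
  · have h1 := prod_bound (u := 9) (v := 10) hq2 [6, 8, 12] (by norm_num)
    simp only [List.sum_cons, List.sum_nil, List.map_cons, List.map_nil, List.prod_cons, List.prod_nil,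
      mul_one] at h1
    refine Nat.le_of_mul_le_mul_left ?_ hd0
    have h3 := fin_le (q := q) (N := 36) (n := 40) (k := 4) (u := 9) (v := 10) (E := q ^ 2 - 1) (o := 36 * f)
      (P := (q ^ 5 + 1) * (q ^ 6 - 1) * (q ^ 8 - 1) * (q ^ 9 + 1) * (q ^ 12 - 1)) (by norm_num) rfl ?_ ?_
    · have h33 : d * d ≤ 3 * 3 := Nat.mul_le_mul hd3 hd3
      have h7 : 4 * (d * d) * f ≤ 36 * f := Nat.mul_le_mul_right _ (Nat.mul_le_mul_left 4 h33)
      have h8 : d * (2 * (2 * (d * f)) * q ^ 36) ≤ 36 * f * q ^ 36 :=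
        le_trans (le_of_eq (by ring)) (Nat.mul_le_mul_right (q ^ 36) h7)
      refine h8.trans (h3.trans (le_of_eq ?_))
      rw [hq1]; ring
    · calc 9 * q ^ 40 = (9 * q ^ (6 + (8 + (12 + 0)))) * (q ^ 5 * q ^ 9) := by ring
        _ ≤ (10 * ((q ^ 6 - 1) * ((q ^ 8 - 1) * (q ^ 12 - 1)))) * ((q ^ 5 + 1) * (q ^ 9 + 1)) :=
          Nat.mul_le_mul h1 (Nat.mul_le_mul (by omega) (by omega))
        _ = _ := by ring
    · exact arith_E6 hq2 hfq

/-- the twisted groups `²E₆`, `³D₄` -/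
theorem crit_of_tw {p : ℕ} {G : Type u} [Group G] (hG : IsTwistedE6D4Char p G) : Crit G := by
  obtain ⟨K, _, _, _, q, hq, ⟨hK, ⟨e⟩⟩ | ⟨hK, ⟨e⟩⟩⟩ := hG
  · exact (crit_twE6 hq hK).congr e.symm
  · exact (crit_twD4 hq hK).congr e.symm

theorem crit_of_2F4 {G : Type u} [Group G] (hG : Iso2F4 G) : Crit G := by
  obtain ⟨K, _, _, m, hm, hK, ⟨e⟩⟩ := hG
  exact (crit_twF4 hm hK).congr e.symm

theorem crit_of_ree {G : Type u} [Group G] (hG : IsoRee G) : Crit G := by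
  obtain ⟨K, _, _, m, hm, hK, ⟨e⟩⟩ := hG
  exact (crit_twG2 hm hK).congr e.symm

end Cfsg.Agent.H228.CritExc
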