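import Mathlib
import Cfsg.Agent.H228.CritTw
import Cfsg.Agent.OddCyclic.ClaimC.SzIso
import Cfsg.Agent.LieExceptional.SuzukiHyp
import Cfsg.Agent.S2126
import Cfsg.Agent.S1163

/-!
# `Crit S` for the Suzuki groups and for all exceptional groups of Lie type (helper228)
-/

set_option autoImplicit false

namespace Cfsg.Agent.H228.CritExc

open Cfsg.Lie Cfsg.Agent.H548.Crit Cfsg.Agent.H228.CritArith Cfsg.Agent.LieExceptional

universe u

theorem crit_sz {F : Type u} [Field F] [Fintype F] {m : ℕ} (hm : 1 ≤ m) (hF : Fintype.card F = 2 ^ (2 * m + 1)) :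
    Crit ↥(Lie.Sz F (2 ^ (m + 1))) := by
  have hO := S2126.result hm hF
  have hS := (S1163.result hm hF).1
  obtain ⟨e⟩ := OddCyclic.ClaimC.SzIso.iso (F := F) hm hF
  have hfin : Finite (Cfsg.suzukiOvoid F m) := inferInstance
  obtain ⟨g, -, hg, -⟩ := (SuzukiHyp.hyp hm hF).exists_tori rfl (2 ^ (2 * m + 1) - 2 ^ (m + 1) + 1) (by simp)
  rw [card_centralizer_congr e g] at hg
  obtain ⟨f, hf⟩ : ∃ f, f = 2 * m + 1 := ⟨_, rfl⟩
  rw [← hf] at hO hg hS
  have h3 : 3 ≤ f := by omega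
  have hfq := two_mul_le h3
  obtain ⟨q, hq⟩ : ∃ q, q = 2 ^ f := ⟨_, rfl⟩
  rw [← hq] at hfq hg hS
  have hq1 : 1 ≤ q := by omega
  have hqq : q ≤ q ^ 2 := Nat.le_self_pow (by norm_num) q
  have hpos : 0 < 2 ^ (m + 1) := by positivity
  have hx : ∃ x : ↥(Lie.Sz F (2 ^ (m + 1))), Nat.card (Subgroup.centralizer ({x} : Set _)) ≤ q ^ 2 :=
    ⟨e g, by rw [hg]; omega⟩
  refine crit_q Nat.prime_two hq (by omega) hx (M := (q - 1) * (q ^ 2 + 1))
    (a := q ^ 2 + 1) (b := q - 1) ?_ ?_ (le_of_eq hO) ?_ ?_ ?_ ?_ ?_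
  · rw [hS]; ring
  · refine Nat.Coprime.mul_right ?_ (cop_add (by norm_num))
    have := cop_sub (q := q) (i := 1) hq1 one_ne_zero
    rwa [pow_one] at this
  · have h1 : q ^ 2 + 1 = 2 + (q + 1) * (q - 1) := by
      zify [hq1]; ring
    rw [h1, Nat.coprime_add_mul_right_left, Nat.coprime_two_left]
    have h2 : Even q := by rw [hq]; exact (Nat.even_pow.2 ⟨even_two, by omega⟩)
    exact Nat.Even.sub_odd hq1 h2 odd_one
  · exact ⟨1, by ring⟩
  · omega
  · omega
  · calc 2 * f * q ^ 2 ≤ (q - 1) * q ^ 2 := Nat.mul_le_mul_right _ (by omega)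
      _ ≤ (q - 1) * (q ^ 2 + 1) := by gcongr; omega

theorem crit_of_suzuki {G : Type u} [Group G] (hG : IsoSuzuki G) : Crit G := by
  obtain ⟨K, _, _, m, hm, hK, ⟨e⟩⟩ := hG
  exact (crit_sz hm hK).congr e.symm

/-- **`Crit S` for the exceptional groups of Lie type** (without the Tits group) -/
theorem crit_of_exceptional {p : ℕ} {G : Type u} [Group G]
    (hG : IsExceptionalChevChar p G ∨ IsTwistedE6D4Char p G ∨ IsoSuzuki G ∨ Iso2F4 G ∨ IsoRee G) : Crit G := by
  rcases hG with h | h | h | h | h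
  · exact crit_of_chev h
  · exact crit_of_tw h
  · exact crit_of_suzuki h
  · exact crit_of_2F4 h
  · exact crit_of_ree h

end Cfsg.Agent.H228.CritExc
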